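import Cfsg.Agent.BS.SP6
import Cfsg.Agent.H8.Br3
import Cfsg.Agent.H2.ChTool
import Cfsg.Agent.GW.L1

/-! Elementary abelian TI Sylow 3-subgroups with a semiregular invariant subgroup are normal. -/

set_option autoImplicit false
set_option linter.unusedSectionVars false
set_option linter.unusedVariables false

namespace HY

open Cfsg FT H4 GW
open Subgroup hiding one
open H5 (IsSylowOf card_mul_relIndex)
open scoped ComplexConjugate Classical

instance factThreeHY : Fact (Nat.Prime 3) := ⟨Nat.prime_three⟩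

variable {G : Type*} [Group G]

theorem cube_inv {a : G} (h : a ^ 3 = 1) : a * a = a⁻¹ :=
  eq_inv_of_mul_eq_one_left (by rw [← h, pow_three'])

theorem cube_conj {a : G} (h : a ^ 3 = 1) (g : G) : (g * a * g⁻¹) ^ 3 = 1 := by
  rw [conj_pow, h]; group

theorem pg_of_cube {X : Subgroup G} (h : ∀ a ∈ X, a ^ 3 = 1) : IsPGroup 3 X := fun a =>
  ⟨1, Subtype.ext (by simpa using h a a.2)⟩

theorem pg_zp {a : G} {p k : ℕ} (h : a ^ p ^ k = 1) : IsPGroup p (zpowers a) := by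
  rintro ⟨_, n, rfl⟩
  exact ⟨k, Subtype.ext (by
    change (a ^ n) ^ p ^ k = 1
    rw [← zpow_natCast, ← zpow_mul, mul_comm, zpow_mul, zpow_natCast, h, one_zpow])⟩

/-- the `(3,3,3)` triangle group -/
theorem tri [Finite G] {a b : G} (ha : a ^ 3 = 1) (hb : b ^ 3 = 1) (hab : (a * b) ^ 3 = 1) :
    IsConj b a ∨ ∃ e, e ≠ 1 ∧ e ^ 3 = 1 ∧ Commute e (a * e * a⁻¹) ∧ b * e * b⁻¹ = a * e * a⁻¹ := by
  have h1 := cube_inv ha
  have h2 : b⁻¹ * b⁻¹ = b := by rw [cube_inv (by rw [inv_pow, hb, inv_one]), inv_inv]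
  have h3 : b * a * b * a = a⁻¹ * b⁻¹ := by
    calc _ = a⁻¹ * (a * b) ^ 3 * b⁻¹ := by rw [pow_three']; group
      _ = _ := by rw [hab, mul_one]
  obtain ⟨c, hc⟩ : ∃ c, c = a * b⁻¹ := ⟨_, rfl⟩
  obtain ⟨s, hs⟩ : ∃ s, s = b * c * b⁻¹ := ⟨_, rfl⟩
  have k1 : c * s = a⁻¹ * b := by
    rw [hs, hc, ← h1]
    calc _ = a * a * (b⁻¹ * b⁻¹) := by group
      _ = _ := by rw [h2]
  have k2 : s * c = a⁻¹ * b := by
    rw [hs, hc]
    calc _ = b * a * (b⁻¹ * b⁻¹) * a * b⁻¹ := by group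
      _ = a⁻¹ * (b⁻¹ * b⁻¹) := by conv_lhs => rw [h2, h3, mul_assoc]
      _ = _ := by rw [h2]
  have k3 : Commute c s := k1.trans k2.symm
  have k4 : a * c * a⁻¹ = s := by
    calc _ = c * (b * c * b⁻¹) * c⁻¹ := by rw [hc]; group
      _ = _ := by rw [← hs, k3.eq, mul_inv_cancel_right]
  have k5 : b * s * b⁻¹ = (c * s)⁻¹ := by
    rw [k1, hs, hc]
    calc _ = b * b * a * (b⁻¹ * b⁻¹) * b⁻¹ := by group
      _ = _ := by rw [h2, cube_inv hb]; group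
  by_cases hd : 3 ∣ orderOf c
  · obtain ⟨n, hn⟩ := hd
    have h0 : 0 < orderOf c := orderOf_pos c
    refine Or.inr ⟨c ^ n, pow_ne_one_of_lt_orderOf (by omega) (by omega), by
      rw [← pow_mul, mul_comm, ← hn, pow_orderOf_eq_one], ?_, ?_⟩
    · rw [← conj_pow, k4]; exact k3.pow_pow n n
    · rw [← conj_pow, ← conj_pow, k4, hs]
  · obtain ⟨k, hk⟩ := exists_pow_eq_self_of_coprime
      ((Nat.Prime.coprime_iff_not_dvd Nat.prime_three).2 hd)
    refine Or.inl (isConj_iff.2 ⟨(c * c * s) ^ k, ?_⟩)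
    have e1 : b * (c * c * s) * b⁻¹ = s * c⁻¹ := by
      calc _ = b * c * b⁻¹ * (b * c * b⁻¹) * (b * s * b⁻¹) := by group
        _ = _ := by rw [← hs, k5]; group
    have e2 : Commute (c * c * s) (s * c⁻¹)⁻¹ :=
      (((Commute.refl c).mul_left (Commute.refl c)).mul_left k3.symm |>.inv_right |>
        Commute.mul_right ((k3.mul_left k3).mul_left (Commute.refl s))).inv_right
    have e3 : c * c * s * (s * c⁻¹)⁻¹ = c ^ 3 := by
      rw [mul_inv_rev, inv_inv, pow_three', mul_assoc (c * c), ← mul_assoc s, ← k3.eq]; group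
    calc _ = (c * c * s) ^ k * (b * (c * c * s) ^ k * b⁻¹)⁻¹ * b := by group
      _ = _ := by rw [← conj_pow, e1, ← inv_pow, ← e2.mul_pow, e3, hk, hc]; group

/-- the hypotheses -/
structure T3 (M A : Subgroup G) : Prop where
  comm : ∀ a ∈ M, ∀ b ∈ M, a * b = b * a
  cube : ∀ a ∈ M, a ^ 3 = 1
  nor3 : ∀ n ∈ Nor M, ∀ k, n ^ 3 ^ k = 1 → n ∈ M
  ti : ∀ a ∈ M, a ≠ 1 → ∀ g, g * a * g⁻¹ ∈ M → g ∈ Nor M
  le : A ≤ M
  ne : ∃ x ∈ A, x ≠ 1
  ne' : ∃ y ∈ M, y ∉ A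
  nor : Nor M ≤ Nor A
  cen : ∀ a ∈ A, a ≠ 1 → ∀ n ∈ Nor M, n * a = a * n → n ∈ M

namespace T3

variable [Fintype G] {M A : Subgroup G} (h : T3 M A) {x y : G} {l l' : G → ℂ}
include h

theorem mc : IsMulCommutative M := ⟨⟨fun a b => Subtype.ext (h.comm a a.2 b b.2)⟩⟩

theorem conj_in {e : G} (he : e ^ 3 = 1) : ∃ g, g * e * g⁻¹ ∈ M := by
  have hs : IsSylowOf 3 M ⊤ := IsSylowOf.of_normalizer (H5.isSylowOf_of_maximal
    (le_inf le_top le_normalizer) (pg_of_cube h.cube) fun R hR _ h2 r hr => by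
      obtain ⟨k, hk⟩ := hR ⟨r, hr⟩
      exact h.nor3 r (h2 hr).2 k (congrArg Subtype.val hk))
  obtain ⟨k, -, hk⟩ := hs.exists_conj_le (pg_zp (k := 1) (by rwa [pow_one])) le_top
  exact ⟨k, hk (mem_map_of_mem _ (mem_zpowers e))⟩

theorem pair (hx : x ∈ A) (x1 : x ≠ 1) (hy : y ∈ M) (yA : y ∉ A) {g k : G}
    (hw : g⁻¹ * x * g * (k⁻¹ * y * k) ∈ M) (w1 : g⁻¹ * x * g * (k⁻¹ * y * k) ≠ 1) :
    g ∈ Nor M ∧ k ∈ Nor M := by
  have ha : (g⁻¹ * x * g) ^ 3 = 1 := by simpa using cube_conj (h.cube x (h.le hx)) g⁻¹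
  have hb : (k⁻¹ * y * k) ^ 3 = 1 := by simpa using cube_conj (h.cube y hy) k⁻¹
  have y1 : y ≠ 1 := fun e => yA (e ▸ one_mem _)
  rcases tri ha hb (h.cube _ hw) with h1 | ⟨e, e1, e3, ec, ee⟩
  · obtain ⟨c, hc⟩ := isConj_iff.1 h1
    have e : k * c⁻¹ * g⁻¹ * x * (k * c⁻¹ * g⁻¹)⁻¹ = y := by
      calc _ = k * c⁻¹ * (g⁻¹ * x * g) * c * k⁻¹ := by group
        _ = _ := by rw [← hc]; group
    exact absurd (e ▸ cmem (h.nor (h.ti x (h.le hx) x1 _ (e ▸ hy))) hx) yA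
  obtain ⟨u, hu⟩ := h.conj_in e3
  have u1 : u * e * u⁻¹ ≠ 1 := by simpa using e1
  have key : ∀ a : G, a ^ 3 = 1 → Commute e (a * e * a⁻¹) → u * a * u⁻¹ ∈ M := fun a a3 ac => by
    have h1 : u * (a * e * a⁻¹) * u⁻¹ ∈ M := h.nor3 _ (h.ti _ hu u1 _ (by
      rw [show u * (a * e * a⁻¹) * u⁻¹ * (u * e * u⁻¹) * (u * (a * e * a⁻¹) * u⁻¹)⁻¹ =
        u * (a * e * a⁻¹ * e * (a * e * a⁻¹)⁻¹) * u⁻¹ by group, ← ac.eq, mul_inv_cancel_right]
      exact hu)) 1 (by rw [pow_one]; exact cube_conj (cube_conj e3 a) u)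
    exact h.nor3 _ (h.ti _ hu u1 _ (H5.mem_of_eq h1 (by group))) 1
      (by rw [pow_one]; exact cube_conj a3 u)
  have k1 := key _ ha ec
  have k2 := key _ hb (ee ▸ ec)
  have k3 : u ∈ Nor M := h.ti _ hw w1 u (H5.mem_of_eq (mul_mem k1 k2) (by group))
  exact ⟨inv_mem_iff.1 (h.ti x (h.le hx) x1 _ (H5.mem_of_eq (cmem' k3 k1) (by group))),
    inv_mem_iff.1 (h.ti y hy y1 _ (H5.mem_of_eq (cmem' k3 k2) (by group)))⟩

theorem inert (hl : Irr M l) (hA : ¬ A ≤ cfker M l) {n : G} (hn : n ∈ Nor M)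
    (e : ∀ a ∈ A, l (n⁻¹ * a * n) = l a) : n ∈ M := by
  by_contra nM
  have hL := hl.lin_of_comm h.mc
  let φ : A → A := fun a => ⟨a.1⁻¹ * (n⁻¹ * a * n), mul_mem (inv_mem a.2) (cmem' (h.nor hn) a.2)⟩
  have hi : Function.Injective φ := fun a b e1 => by
    have e2 : a.1⁻¹ * (n⁻¹ * a * n) = b.1⁻¹ * (n⁻¹ * b * n) := congrArg Subtype.val e1
    by_contra ne
    refine nM (h.cen (a * b.1⁻¹) (mul_mem a.2 (inv_mem b.2))
      (fun e => ne (Subtype.ext (mul_inv_eq_one.1 e))) n hn ?_)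
    have e3 : n⁻¹ * (a * b.1⁻¹) * n = a * b.1⁻¹ := by
      calc _ = a * (a.1⁻¹ * (n⁻¹ * a * n)) * (n⁻¹ * b * n)⁻¹ := by group
        _ = _ := by rw [e2]; group
    calc n * (a * b.1⁻¹) = n * (n⁻¹ * (a * b.1⁻¹) * n) := by rw [e3]
      _ = _ := by group
  refine hA fun a ha => hL.mem_cfker.2 ?_
  obtain ⟨b, hb⟩ := Finite.surjective_of_injective hi ⟨a, ha⟩
  rw [← show b.1⁻¹ * (n⁻¹ * b * n) = a from congrArg Subtype.val hb,
    hL.map_mul_left (inv_mem (h.le b.2)), e _ b.2, ← hL.map_mul_left (inv_mem (h.le b.2)),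
    inv_mul_cancel, hL.apply_one]

theorem on_sub (hl : Irr M l) (hl' : Irr M l') :
    On ((M : Set G) \ {1}) (ind M (Nor M) l - ind M (Nor M) l') :=
  ((on_ind_of_nor le_rfl l).sub (on_ind_of_nor le_rfl l')).diff_one (by
    rw [Pi.sub_apply, ind_apply_one le_normalizer, ind_apply_one le_normalizer,
      hl.apply_one_of_comm h.mc, hl'.apply_one_of_comm h.mc, sub_self])

theorem ti' : ∀ a ∈ (M : Set G) \ {1}, ∀ g ∈ (⊤ : Subgroup G), g * a * g⁻¹ ∈ (M : Set G) \ {1} →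
    g ∈ Nor M := fun a ha g _ e => h.ti a ha.1 ha.2 g e.1

theorem exc : ∃ (μ : (G → ℂ) → G → ℂ) (ε : ℤ), (ε = 1 ∨ ε = -1) ∧
    (∀ l ∈ irrKD M A ⊥, Irr ⊤ (μ l)) ∧ ∀ l ∈ irrKD M A ⊥, ∀ l' ∈ irrKD M A ⊥,
      ind (Nor M) ⊤ (ind M (Nor M) l - ind M (Nor M) l') = (ε : ℂ) • (μ l - μ l') := by
  have hS : ∀ {φ}, φ ∈ (irrKD M A ⊥).image (ind M (Nor M)) →
      ∃ l, Irr M l ∧ ¬ A ≤ cfker M l ∧ ind M (Nor M) l = φ := fun hφ => by
    obtain ⟨l, hl, e⟩ := Finset.mem_image.mp hφ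
    exact ⟨l, (mem_irrKD.1 hl).1, (mem_irrKD.1 hl).2.2, e⟩
  obtain ⟨μ, ε, h2, -, h4, h5⟩ := isometry_base (L := Nor M) (M := ⊤) (indL (Nor M) ⊤)
    (S := (irrKD M A ⊥).image (ind M (Nor M))) (on_irrs fun φ hφ => by
      obtain ⟨l, hl, hA, rfl⟩ := hS hφ
      exact hl.irr_ind le_normalizer le_rfl fun n hn =>
        h.inert hl hA hn.1 fun a _ => congrFun hn.2 a) (fun a ha b hb => by
      obtain ⟨l, hl, -, rfl⟩ := hS ha
      obtain ⟨l', hl', -, rfl⟩ := hS hb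
      exact ⟨((hl.vchr.ind le_normalizer).sub (hl'.vchr.ind le_normalizer)).ind le_top, by
        rw [indL_apply, ind_apply_one le_top, (h.on_sub hl hl').apply_one, mul_zero]⟩)
    fun a ha b hb c hc => by
      obtain ⟨l, hl, -, rfl⟩ := hS ha
      obtain ⟨l', hl', -, rfl⟩ := hS hb
      obtain ⟨l'', hl'', -, rfl⟩ := hS hc
      exact ip_ind_ind_of_TI h.ti' le_top (h.on_sub hl hl'')
        ((cf_ind le_normalizer _).sub (cf_ind le_normalizer _)) (h.on_sub hl' hl'')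
  exact ⟨fun l => μ (ind M (Nor M) l), ε, h2, fun l hl => h4 _ (Finset.mem_image_of_mem _ hl),
    fun l hl l' hl' => h5 _ (Finset.mem_image_of_mem _ hl) _ (Finset.mem_image_of_mem _ hl')⟩

omit h in
theorem sum_irr {χ : G → ℂ} (hχ : Irr ⊤ χ) (x y : G) :
    ∑ g, ∑ k, χ (g⁻¹ * x * g * (k⁻¹ * y * k)) = (Nat.card G : ℂ) ^ 2 * (χ x * χ y) / χ 1 := by
  rw [Finset.sum_comm, Finset.sum_congr rfl (g := fun _ => Nat.card G * χ x / χ 1 * χ y),
    Finset.sum_const, Finset.card_univ, ← Nat.card_eq_fintype_card, nsmul_eq_mul]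
  · ring
  · intro k _
    rw [← hχ.cf.cnj' (mem_top k) y, ← H8.irr_sum_conj_mul (irr_top_iff.1 hχ) x]
    exact Fintype.sum_equiv (Equiv.inv G) _ _ fun g => by simp

theorem sum_ind (hx : x ∈ A) (x1 : x ≠ 1) (hy : y ∈ M) (yA : y ∉ A) (hl : Irr M l)
    (hl' : Irr M l') : ∑ g, ∑ k, ind M ⊤ (l - l') (g⁻¹ * x * g * (k⁻¹ * y * k)) =
      Nat.card G * Nat.card M * (ind M (Nor M) l x * ind M (Nor M) l y -
        ind M (Nor M) l' x * ind M (Nor M) l' y) := by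
  have h0 : On ((M : Set G) \ {1}) (l - l') := (hl.on.sub hl'.on).diff_one (by
    rw [Pi.sub_apply, hl.apply_one_of_comm h.mc, hl'.apply_one_of_comm h.mc, sub_self])
  have h1 : ∀ u : G, ∑ g, ∑ k, (l - l') (u⁻¹ * (g⁻¹ * x * g * (k⁻¹ * y * k)) * u) =
      ∑ g, ∑ k, (l - l') (g⁻¹ * x * g * (k⁻¹ * y * k)) := fun u =>
    Fintype.sum_equiv (Equiv.mulRight u) _ _ fun g =>
      Fintype.sum_equiv (Equiv.mulRight u) _ _ fun k => by
        congr 1; simp only [Equiv.coe_mulRight]; group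
  have h2 : ∀ {l : G → ℂ}, Irr M l → ∑ g ∈ Finset.univ.filter (· ∈ Nor M),
      ∑ k ∈ Finset.univ.filter (· ∈ Nor M), l (g⁻¹ * x * g * (k⁻¹ * y * k)) =
      Nat.card M ^ 2 * (ind M (Nor M) l x * ind M (Nor M) l y) := fun {l} hl => by
    rw [hl.on.ind_apply, hl.on.ind_apply, Finset.sum_congr rfl fun g hg => Finset.sum_congr rfl
      fun k _ => (hl.lin_of_comm h.mc).map_mul_left
        (cmem' (Finset.mem_filter.1 hg).2 (h.le hx)) _, ← Finset.sum_mul_sum]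
    field_simp [card_ne_zero' M]
  have h3 : ∑ g, ∑ k, (l - l') (g⁻¹ * x * g * (k⁻¹ * y * k)) =
      ∑ g ∈ Finset.univ.filter (· ∈ Nor M), ∑ k ∈ Finset.univ.filter (· ∈ Nor M),
        (l - l') (g⁻¹ * x * g * (k⁻¹ * y * k)) := by
    rw [Finset.sum_filter]
    refine Finset.sum_congr rfl fun g _ => ?_
    rw [Finset.sum_filter]
    split_ifs with hg
    · refine Finset.sum_congr rfl fun k _ => ?_
      split_ifs with hk
      · rfl
      · exact h0 _ fun e => hk (h.pair hx x1 hy yA e.1 e.2).2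
    · exact Finset.sum_eq_zero fun k _ => h0 _ fun e => hg (h.pair hx x1 hy yA e.1 e.2).1
  simp only [(hl.on.sub hl'.on).ind_apply, mem_top, Finset.filter_true, ← Finset.mul_sum]
  rw [Finset.sum_congr rfl fun g _ => Finset.sum_comm, Finset.sum_comm,
    Finset.sum_congr rfl fun u _ => h1 u, h3, Finset.sum_const, Finset.card_univ,
    ← Nat.card_eq_fintype_card, nsmul_eq_mul]
  simp only [Pi.sub_apply, Finset.sum_sub_distrib, h2 hl, h2 hl']
  field_simp [card_ne_zero' M]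

theorem sq_le {g : G} (hg : g ∉ Nor M) : Nat.card M * Nat.card M ≤ Nat.card G := by
  rw [← Nat.card_prod]
  refine Nat.card_le_card_of_injective (fun p : M × M => p.1.1 * (g * p.2 * g⁻¹)) fun p q e => ?_
  have e1 : g * (p.2 * q.2.1⁻¹) * g⁻¹ = p.1.1⁻¹ * q.1 := by
    calc _ = p.1.1⁻¹ * (p.1.1 * (g * p.2 * g⁻¹)) * (g * q.2 * g⁻¹)⁻¹ := by group
      _ = _ := by rw [show p.1.1 * (g * p.2 * g⁻¹) = q.1.1 * (g * q.2 * g⁻¹) from e]; group
  have e2 : (p.2 : G) * q.2.1⁻¹ = 1 := by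
    by_contra ne
    exact hg (h.ti _ (mul_mem p.2.2 (inv_mem q.2.2)) ne g (e1 ▸ mul_mem (inv_mem p.1.2) q.1.2))
  rw [e2] at e1
  exact Prod.ext (Subtype.ext (inv_mul_eq_one.1 (by rw [← e1]; group)))
    (Subtype.ext (mul_inv_eq_one.1 e2))

theorem exists_other (hl : l ∈ irrKD M A ⊥) : ∃ l' ∈ irrKD M A ⊥,
    (∀ x ∈ A, ind M (Nor M) l' x = ind M (Nor M) l x) ∧ ∃ y ∈ M, y ∉ A ∧
      ind M (Nor M) l y ≠ ind M (Nor M) l' y := by
  obtain ⟨y, hy, yA⟩ := h.ne'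
  obtain ⟨β, b1, b2, b3⟩ := exists_irr_not_mem_cfker h.le (le_normalizer.trans h.nor) yA
  obtain ⟨l1, -, l2⟩ := mem_irrKD.1 hl
  have L1 := l1.lin_of_comm h.mc
  have B1 := b1.lin_of_comm h.mc
  have e1 : ∀ a ∈ A, (l * β) a = l a := fun a ha => by
    rw [Pi.mul_apply, B1.mem_cfker.1 (b2 ha), mul_one]
  have i1 := (L1.mul B1).irr
  have e2 : ∀ x ∈ A, ind M (Nor M) (l * β) x = ind M (Nor M) l x := fun x hx => by
    rw [i1.on.ind_apply, l1.on.ind_apply]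
    congr 1
    exact Finset.sum_congr rfl fun n hn => e1 _ (cmem' (h.nor (Finset.mem_filter.1 hn).2) hx)
  refine ⟨l * β, mem_irrKD.2 ⟨i1, bot_le, fun e => l2 fun a ha => L1.mem_cfker.2 ?_⟩, e2, ?_⟩
  · rw [← e1 a ha]; exact (L1.mul B1).mem_cfker.1 (e ha)
  by_contra! hn
  obtain ⟨n, hn, e⟩ := mem_cfclass.1 ((l1.ind_eq_ind_iff i1 le_normalizer le_rfl).1
    ((on_ind_of_nor le_rfl _).ext (on_ind_of_nor le_rfl _) fun x hx => by
      by_cases xA : x ∈ A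
      · exact e2 x xA
      · exact (hn x hx xA).symm))
  have nM := h.inert l1 l2 hn fun a ha => by rw [← e1 a ha, ← e]; rfl
  rw [l1.cf.cj_eq nM] at e
  have := congrFun e y
  rw [Pi.mul_apply] at this
  exact b3 (B1.mem_cfker.2 (mul_left_cancel₀ (L1.ne_zero hy) (this.symm.trans (mul_one _).symm)))

theorem sum_psi (hx : x ∈ A) (x1 : x ≠ 1) : ∑ l ∈ irrKD M A ⊥, ind M (Nor M) l x =
    -(M.relIndex (Nor M) * A.relIndex M) := by
  have h1 : ∀ a ∈ A, a ≠ 1 → ∑ l ∈ irrKD M A ⊥, l a = -(A.relIndex M : ℂ) := fun a ha a1 => by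
    have k : ∀ B, ∑ l ∈ irrK M B, l a = ∑ l ∈ irrK M B, l 1 * l a := fun B =>
      Finset.sum_congr rfl fun l hl => by rw [(mem_irrK.1 hl).1.apply_one_of_comm h.mc, one_mul]
    rw [sum_irrKD bot_le, k, k, sum_irrK_mul bot_le (le_top.trans (normalizer_eq_top _).ge), sum_irrK_mul h.le
      (le_normalizer.trans h.nor), if_neg (mem_bot.not.2 a1), if_pos ha, zero_sub]
  rw [Finset.sum_congr rfl fun l hl => (mem_irrKD.1 hl).1.on.ind_apply x, ← Finset.mul_sum,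
    Finset.sum_comm, Finset.sum_congr rfl fun n hn => h1 _
      (cmem' (h.nor (Finset.mem_filter.1 hn).2) hx) (fun e => x1 (by
        calc x = n * (n⁻¹ * x * n) * n⁻¹ := by group
          _ = 1 := by rw [e]; group)),
    sum_mem_const, nsmul_eq_mul, ← mul_assoc, card_div_card le_normalizer, mul_neg]

theorem idx_le (hx : x ∈ A) (x1 : x ≠ 1) : M.relIndex (Nor M) + 1 ≤ Nat.card A := by
  have h1 := BS.card_cob (Nor M) x
  have h2 : Nor M ⊓ Cen1 x = M := le_antisymm (fun n hn => h.cen x hx x1 n hn.1 (c1.1 hn.2))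
    (le_inf le_normalizer fun m hm => c1.2 (h.comm m hm x (h.le hx)))
  rw [h2, ← card_mul_relIndex (le_normalizer : M ≤ Nor M)] at h1
  rw [← Nat.eq_of_mul_eq_mul_left Nat.card_pos h1, ← card_filter_mem,
    ← Finset.card_insert_of_notMem (a := 1) (fun e => by
      obtain ⟨u, -, e⟩ := BS.mem_cob.1 e
      exact x1 (by simpa using e))]
  refine Finset.card_le_card fun c hc => ?_
  rcases Finset.mem_insert.1 hc with rfl | hc
  · simp
  · obtain ⟨u, hu, rfl⟩ := BS.mem_cob.1 hc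
    simpa using cmem (h.nor hu) hx

theorem main : Nor M = ⊤ := by
  by_contra hn
  obtain ⟨g, hg⟩ : ∃ g, g ∉ Nor M := by
    by_contra! e; exact hn (eq_top_iff.2 fun g _ => e g)
  obtain ⟨x, hx, x1⟩ := h.ne
  obtain ⟨μ, ε, hε, hi, hd⟩ := h.exc
  have ε2 : (ε : ℂ) * ε = 1 := by rcases hε with rfl | rfl <;> simp
  have ε0 : (ε : ℂ) ≠ 0 := left_ne_zero_of_mul_eq_one ε2
  have ir : ∀ {l}, l ∈ irrKD M A ⊥ → Irr M l := fun hl => (mem_irrKD.1 hl).1
  have v1 : ∀ l ∈ irrKD M A ⊥, ∀ l' ∈ irrKD M A ⊥, μ l 1 = μ l' 1 := fun l hl l' hl' => by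
    have := congrFun (hd l hl l' hl') 1
    rw [ind_apply_one le_top, (h.on_sub (ir hl) (ir hl')).apply_one, mul_zero] at this
    simpa [ε0, sub_eq_zero] using this.symm
  have v2 : ∀ l ∈ irrKD M A ⊥, ∀ l' ∈ irrKD M A ⊥, ∀ a ∈ M, a ≠ 1 →
      μ l' a = μ l a - ε * (ind M (Nor M) l a - ind M (Nor M) l' a) := fun l hl l' hl' a ha a1 => by
    have := congrFun (hd l hl l' hl') a
    rw [ind_apply_of_TI h.ti' le_top ((cf_ind le_normalizer _).sub (cf_ind le_normalizer _))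
      (h.on_sub (ir hl) (ir hl')) ⟨ha, a1⟩] at this
    simp only [Pi.sub_apply, Pi.smul_apply, smul_eq_mul] at this
    rw [this]; linear_combination (μ l a - μ l' a) * ε2
  have g0 : (Nat.card G : ℂ) ≠ 0 := Nat.cast_ne_zero.2 Nat.card_pos.ne'
  have v3 : ∀ l ∈ irrKD M A ⊥, Nat.card G * μ l x = Nat.card M * μ l 1 * ind M (Nor M) l x :=
    fun l hl => by
    obtain ⟨l', hl', e1, y, hy, yA, e2⟩ := h.exists_other hl
    have y1 : y ≠ 1 := fun e => yA (e ▸ one_mem _)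
    have k1 := h.sum_ind hx x1 hy yA (ir hl) (ir hl')
    rw [← ind_ind le_normalizer le_top, ind_sub (K := M), hd l hl l' hl'] at k1
    simp only [Pi.sub_apply, Pi.smul_apply, smul_eq_mul, ← Finset.mul_sum,
      Finset.sum_sub_distrib] at k1
    rw [sum_irr (hi l hl), sum_irr (hi l' hl'), ← v1 l hl l' hl', v2 l hl l' hl' x (h.le hx) x1,
      v2 l hl l' hl' y hy y1, e1 x hx] at k1
    have d0 := (hi l hl).apply_one_ne_zero
    apply mul_right_cancel₀ (sub_ne_zero.2 e2)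
    field_simp at k1
    linear_combination k1 - (Nat.card G : ℂ) * μ l x *
      (ind M (Nor M) l y - ind M (Nor M) l' y) * ε2
  obtain ⟨l, hl⟩ : (irrKD M A ⊥).Nonempty := irrKD_nonempty bot_le (le_top.trans (normalizer_eq_top _).ge)
    fun e => x1 (mem_bot.1 (e hx))
  obtain ⟨d, d0, hd1⟩ := (hi l hl).apply_one
  have dv : (Nat.card G : ℤ) ∣ Nat.card M * d := by
    by_cases e : (Nat.card M * d : ℂ) = ε * Nat.card G
    · exact ⟨ε, by exact_mod_cast e.trans (mul_comm _ _)⟩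
    have k1 : ∀ l' ∈ irrKD M A ⊥, ind M (Nor M) l' x = ind M (Nor M) l x := fun l' hl' => by
      have a1 := v3 l hl
      have a2 := v3 l' hl'
      rw [v2 l hl l' hl' x (h.le hx) x1, ← v1 l hl l' hl'] at a2
      rw [hd1] at a1 a2
      apply mul_left_cancel₀ (sub_ne_zero.2 e)
      linear_combination a1 - a2
    have k2 := h.sum_psi hx x1
    rw [Finset.sum_congr rfl k1, Finset.sum_const, card_irrKD bot_le h.le
      (der_eq_bot_of_comm h.mc).le, relIndex_bot_left, ← card_mul_relIndex h.le] at k2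
    have k3 := h.idx_le hx x1
    obtain ⟨s, hs⟩ : ∃ s, Nat.card A = s + 1 := ⟨Nat.card A - 1, by omega⟩
    have r0 : (A.relIndex M : ℂ) ≠ 0 := Nat.cast_ne_zero.2 (relIndex_ne_zero_of_finite _ _)
    have e0 := relIndex_ne_zero_of_finite M (Nor M)
    rw [hs, add_mul, one_mul, Nat.add_sub_cancel, nsmul_eq_mul] at k2
    have k4 : ((s : ℤ) : ℂ) * ind M (Nor M) l x = ((-(M.relIndex (Nor M) : ℤ) : ℤ) : ℂ) := by
      apply mul_left_cancel₀ r0
      push_cast at k2 ⊢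
      linear_combination k2
    obtain ⟨v, hv⟩ := H2.exists_int_of_mul (((ir hl).vchr.ind le_normalizer).isIntegral x)
      (by omega) k4
    rw [hv] at k4
    have k5 : (s : ℤ) * v = -(M.relIndex (Nor M) : ℤ) := by exact_mod_cast k4
    have k6 : v = -1 := by
      have b1 : (M.relIndex (Nor M) : ℤ) ≤ s := by omega
      have b2 : (0 : ℤ) < M.relIndex (Nor M) := by omega
      have : v < 0 := by by_contra! e; nlinarith
      by_contra e
      nlinarith [show v ≤ -2 by omega]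
    have k7 := v3 l hl
    rw [hv, k6, hd1] at k7
    obtain ⟨c, hc⟩ := H2.exists_int_of_mul ((hi l hl).vchr.isIntegral x)
      (m := Nat.card G) (a := -(Nat.card M * d)) (by exact_mod_cast Nat.card_pos.ne')
      (by push_cast at k7 ⊢; linear_combination k7)
    rw [hc] at k7
    exact ⟨-c, Int.cast_injective (α := ℂ) (by push_cast at k7 ⊢; linear_combination k7)⟩
  have d1 : Nat.card G ≤ Nat.card M * d := Nat.le_of_dvd (Nat.mul_pos Nat.card_pos d0)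
    (by exact_mod_cast dv)
  obtain ⟨l', hl', -, y, hy, yA, e2⟩ := h.exists_other hl
  have ne : μ l ≠ μ l' := fun e => e2 (by
    have := v2 l hl l' hl' y hy fun e => yA (e ▸ one_mem _)
    rw [e] at this
    exact sub_eq_zero.1 (mul_left_cancel₀ ε0 (by linear_combination this)))
  have d2 : 2 * d ^ 2 ≤ Nat.card G := by
    have a1 := sum_norm_sq_irrs (L := ⊤) (mem_top (1 : G))
    have a2 := Finset.sum_le_sum_of_subset_of_nonneg (f := fun χ : G → ℂ => ‖χ 1‖ ^ 2)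
      (s := {μ l, μ l'}) (t := irrs ⊤) (fun c hc => by
        rcases Finset.mem_insert.1 hc with rfl | hc
        · exact mem_irrs.2 (hi l hl)
        · rw [Finset.mem_singleton.1 hc]; exact mem_irrs.2 (hi l' hl')) fun _ _ _ => sq_nonneg _
    rw [a1, Finset.sum_pair ne, ← v1 l hl l' hl', hd1, Complex.norm_natCast] at a2
    have a3 := card_le_card_group (⊤ ⊓ Cen1 (1 : G))
    have : ((2 * d ^ 2 : ℕ) : ℝ) ≤ Nat.card ↥(⊤ ⊓ Cen1 (1 : G)) := by push_cast; linarith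
    exact (Nat.cast_le.1 this).trans a3
  have d3 := h.sq_le hg
  have d4 : 0 < Nat.card G := Nat.card_pos
  nlinarith [Nat.mul_le_mul d1 d1, Nat.mul_le_mul d3 d2]

end T3

/-- the hypotheses modulo a central subgroup `Y` of `H` -/
structure T4 (H Y M A : Subgroup G) : Prop where
  YA : Y ≤ A
  le : A ≤ M
  MH : M ≤ H
  cY : H ≤ Cen Y
  comm : ∀ a ∈ M, ∀ b ∈ M, a * b = b * a
  cube : ∀ a ∈ M, a ^ 3 ∈ Y
  nor3 : ∀ n ∈ H, n ∈ Nor M → ∀ k, n ^ 3 ^ k ∈ Y → n ∈ M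
  ti : ∀ a ∈ M, a ∉ Y → ∀ g ∈ H, g * a * g⁻¹ ∈ M → g ∈ Nor M
  ne : ∃ x ∈ A, x ∉ Y
  ne' : ∃ y ∈ M, y ∉ A
  nor : ∀ n ∈ H, n ∈ Nor M → n ∈ Nor A
  cen : ∀ a ∈ A, a ∉ Y → ∀ n ∈ H, n ∈ Nor M → n * a * n⁻¹ * a⁻¹ ∈ Y → n ∈ M

theorem T4.main [Finite G] {H Y M A : Subgroup G} (h : T4 H Y M A) : H ≤ Nor M := by
  haveI : (Y.subgroupOf H).Normal := ⟨fun a ha g => cmem (K := Y) (cnor h.cY g.2) ha⟩
  let f := QuotientGroup.mk' (Y.subgroupOf H)
  have sf : Function.Surjective f := QuotientGroup.mk'_surjective _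
  have k0 : ∀ a : H, f a = 1 ↔ a.1 ∈ Y := fun a => QuotientGroup.eq_one_iff a
  have k1 : ∀ {X : Subgroup G}, Y ≤ X → ∀ a : H, f a ∈ (X.subgroupOf H).map f ↔ a.1 ∈ X :=
    fun {X} hX a => ⟨fun ⟨b, hb, e⟩ => H5.mem_of_eq (mul_mem hb (hX ((k0 (b⁻¹ * a)).1 (by
      rw [map_mul, map_inv, e, inv_mul_cancel])))) (by simp), fun e => mem_map_of_mem f e⟩
  have k2 : ∀ {X : Subgroup G}, Y ≤ X → X ≤ H → ∀ a : H,
      f a ∈ Nor ((X.subgroupOf H).map f) ↔ a.1 ∈ Nor X := fun {X} hX hH a =>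
    ⟨fun e => mnor fun x hx => (k1 hX (a * ⟨x, hH hx⟩ * a⁻¹)).1 (by
      rw [map_mul, map_mul, map_inv]; exact cmem e ((k1 hX _).2 hx)), fun e => mnor fun x hx => by
      obtain ⟨x, rfl⟩ := sf x
      rw [← map_inv, ← map_mul, ← map_mul]
      exact (k1 hX _).2 (cmem e ((k1 hX _).1 hx))⟩
  have YM := h.YA.trans h.le
  haveI := Fintype.ofFinite (H ⧸ Y.subgroupOf H)
  have t : T3 ((M.subgroupOf H).map f) ((A.subgroupOf H).map f) :=
    { comm := by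
        rintro _ ⟨a, ha, rfl⟩ _ ⟨b, hb, rfl⟩
        rw [← map_mul, ← map_mul, show a * b = b * a from Subtype.ext (h.comm a ha b hb)]
      cube := by
        rintro _ ⟨a, ha, rfl⟩
        rw [← map_pow]; exact (k0 _).2 (h.cube a ha)
      nor3 := fun n hn k e => by
        obtain ⟨n, rfl⟩ := sf n
        rw [← map_pow] at e
        exact (k1 YM n).2 (h.nor3 n n.2 ((k2 YM h.MH n).1 hn) k ((k0 _).1 e))
      ti := by
        rintro _ ⟨a, ha, rfl⟩ a1 g e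
        obtain ⟨g, rfl⟩ := sf g
        rw [← map_inv, ← map_mul, ← map_mul] at e
        exact (k2 YM h.MH g).2 (h.ti a ha ((k0 a).not.1 a1) g g.2 ((k1 YM _).1 e))
      le := map_mono (comap_mono h.le)
      ne := by
        obtain ⟨x, hx, x1⟩ := h.ne
        exact ⟨f ⟨x, h.MH (h.le hx)⟩, (k1 h.YA _).2 hx, (k0 _).not.2 x1⟩
      ne' := by
        obtain ⟨x, hx, x1⟩ := h.ne'
        exact ⟨f ⟨x, h.MH hx⟩, (k1 YM _).2 hx, (k1 h.YA _).not.2 x1⟩
      nor := fun n hn => by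
        obtain ⟨n, rfl⟩ := sf n
        exact (k2 h.YA (h.le.trans h.MH) n).2 (h.nor n n.2 ((k2 YM h.MH n).1 hn))
      cen := by
        rintro _ ⟨a, ha, rfl⟩ a1 n hn e
        obtain ⟨n, rfl⟩ := sf n
        exact (k1 YM n).2 (h.cen a ha ((k0 a).not.1 a1) n n.2 ((k2 YM h.MH n).1 hn)
          ((k0 (n * a * n⁻¹ * a⁻¹)).1 (by simp only [map_mul, map_inv, e]; group))) }
  exact fun g hg => (k2 YM h.MH ⟨g, hg⟩).1 (t.main.ge (mem_top _))

end HY
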