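import Cfsg.Agent.HY.A
import Cfsg.Agent.H9.Sp4e
import Cfsg.Agent.H9.SL2

/-! The group `q^{1+2} : SL₂(q)` in characteristic three. -/

set_option autoImplicit false
set_option linter.unusedSectionVars false
set_option linter.unusedVariables false
set_option linter.unusedSimpArgs false

namespace HY

open Subgroup H9.HC
open H9 (HC bo V3)

variable {F : Type*} [Field F]

/-- the centre -/
def Z0 (F : Type*) [Field F] : Subgroup (HC F) where
  carrier := {g | ∃ z, zz z = g}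
  one_mem' := ⟨0, by ext <;> simp [zz]⟩
  mul_mem' := by rintro _ _ ⟨a, rfl⟩ ⟨b, rfl⟩; exact ⟨a + b, by ext <;> simp [zz]⟩
  inv_mem' := by rintro _ ⟨a, rfl⟩; exact ⟨-a, by ext <;> simp [zz]⟩

/-- the Heisenberg group -/
def Q0 (F : Type*) [Field F] : Subgroup (HC F) where
  carrier := {g | g ∈ U F ∧ g.b = 0}
  one_mem' := ⟨one_mem _, rfl⟩
  mul_mem' := fun {g h} hg hh => ⟨mul_mem hg.1 hh.1, by simp [hg.2, hh.2]⟩
  inv_mem' := fun {g} hg => ⟨inv_mem hg.1, by simp [hg.2]⟩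

/-- elements of the Heisenberg group -/
def qq (u v z : F) : HC F := ⟨u, v, z, 1, 0, 0, 1, by ring⟩
/-- the central involution of `SL₂` -/
def tt : HC F := ⟨0, 0, 0, -1, 0, 0, -1, by ring⟩
/-- an element of order four -/
def ii : HC F := ⟨0, 0, 0, 0, -1, 1, 0, by ring⟩
/-- a transvection -/
def uu : HC F := m0 (1, 0, 0)
/-- another element of order four -/
def jj : HC F := uu * ii * uu⁻¹

theorem qq_mem (u v z : F) : qq u v z ∈ Q0 F := ⟨⟨rfl, rfl, rfl⟩, rfl⟩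
theorem eq_qq {g : HC F} (h : g ∈ Q0 F) : g = qq g.u g.v g.z := by
  obtain ⟨⟨h1, h2, h3⟩, h4⟩ := h
  ext <;> simp [qq, h1, h2, h3, h4]
theorem zz_mem (z : F) : zz z ∈ Z0 F := ⟨z, rfl⟩
theorem zz_inj {a b : F} (h : zz a = zz b) : a = b := congrArg H9.HC.z h
theorem zz_zero : zz (0 : F) = 1 := by ext <;> simp [zz]
theorem zz_add (a b : F) : zz (a + b) = zz a * zz b := by ext <;> simp [zz]
theorem zz_neg (a : F) : zz (-a) = (zz a)⁻¹ := by ext <;> simp [zz]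
theorem zz_ne {a : F} (h : a ≠ 0) : zz a ≠ 1 := fun e => h (zz_inj (e.trans zz_zero.symm))
theorem Z0_le_M0 : Z0 F ≤ M0 F := by rintro _ ⟨z, rfl⟩; exact mem_M0.2 ⟨_, m0_zz z⟩
theorem Z0_le_Q0 : Z0 F ≤ Q0 F := by rintro _ ⟨z, rfl⟩; exact ⟨⟨rfl, rfl, rfl⟩, rfl⟩
theorem m0_mem (v : V3 F) : m0 v ∈ M0 F := mem_M0.2 ⟨v, rfl⟩
theorem M0_comm {a b : HC F} (ha : a ∈ M0 F) (hb : b ∈ M0 F) : a * b = b * a := by
  obtain ⟨a, rfl⟩ := mem_M0.1 ha
  obtain ⟨b, rfl⟩ := mem_M0.1 hb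
  rw [← m0_add, ← m0_add, add_comm]
theorem m0_neg (v : V3 F) : m0 (-v) = (m0 v)⁻¹ := by ext <;> simp [m0]
theorem m0_mem_Z {v : V3 F} : m0 v ∈ Z0 F ↔ v.1 = 0 ∧ v.2.1 = 0 :=
  ⟨fun ⟨z, e⟩ => by rw [← m0_zz] at e; rw [← m0_injective e]; exact ⟨rfl, rfl⟩,
    fun e => ⟨v.2.2, by rw [← m0_zz, ← e.1]; nth_rewrite 2 [e.1]; rw [← e.2]⟩⟩
theorem m0_mem_Q {v : V3 F} : m0 v ∈ Q0 F ↔ v.1 = 0 :=
  ⟨fun e => e.2, fun e => ⟨⟨rfl, rfl, rfl⟩, e⟩⟩
theorem tt_sq : (tt : HC F) * tt = 1 := by ext <;> simp [tt]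
theorem ii_sq : (ii : HC F) * ii = tt := by ext <;> simp [tt, ii]
theorem tt_ii : (tt : HC F) * ii = ii * tt := by ext <;> simp [tt, ii]
theorem tt_uu : (tt : HC F) * uu = uu * tt := by ext <;> simp [tt, uu, m0]
theorem tt_jj : (tt : HC F) * jj = jj * tt := by ext <;> simp [tt, jj, uu, ii, m0]
theorem Q0_conj (k : HC F) {g : HC F} (h : g ∈ Q0 F) : k * g * k⁻¹ ∈ Q0 F := by
  obtain ⟨⟨h1, h2, h3⟩, h4⟩ := h
  refine ⟨⟨?_, ?_, ?_⟩, ?_⟩ <;> simp [h1, h2, h3, h4]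
  · ring
  · linear_combination k.det
  · linear_combination k.det
  · ring
theorem qq_comm (u v z u' v' z' : F) : qq u v z * qq u' v' z' * (qq u v z)⁻¹ * (qq u' v' z')⁻¹ =
    zz (2 * (u * v' - v * u')) := by
  ext <;> simp [qq, zz]; ring

section Three
variable (h3 : (3 : F) = 0)
include h3

theorem two_ne : (2 : F) ≠ 0 := fun e => one_ne_zero (α := F) (by linear_combination h3 - e)
theorem neg_one_ne : (-1 : F) ≠ 1 := fun e => two_ne h3 (by linear_combination -e)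
theorem eq_zero_of_neg {a : F} (e : a = -a) : a = 0 := by linear_combination -e + a * h3
theorem tt_ne : (tt : HC F) ≠ 1 := fun e => neg_one_ne h3 (congrArg H9.HC.a e)
theorem jj_sq : (jj : HC F) * jj = tt := by ext <;> simp [tt, jj, uu, ii, m0] <;> ring
theorem uu_jj : (uu : HC F) * jj * uu⁻¹ = ii * jj := by
  ext <;> simp [jj, uu, ii, m0] <;> first | ring1 | linear_combination h3 | linear_combination -h3 | linear_combination -2 * h3
theorem jj_ii : (jj : HC F) * ii * jj⁻¹ = ii⁻¹ := by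
  ext <;> simp [jj, uu, ii, m0] <;> first | ring1 | linear_combination h3 | linear_combination -h3 | linear_combination -2 * h3
theorem jj_nmem : (jj : HC F) ∉ zpowers ii := fun e => by
  have h1 : (jj : HC F) * ii = ii * jj := by
    obtain ⟨n, e⟩ := e
    rw [← e]; exact ((Commute.refl _).zpow_left n).eq
  have h2 := jj_ii h3
  rw [h1, mul_inv_cancel_right] at h2
  exact tt_ne h3 (by rw [← ii_sq]; nth_rewrite 1 [h2]; exact inv_mul_cancel _)

theorem M0_cube {a : HC F} (ha : a ∈ M0 F) : a ^ 3 = 1 := by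
  obtain ⟨a, rfl⟩ := mem_M0.1 ha
  rw [pow_three', ← m0_add, ← m0_add]
  ext <;> simp [m0]
  · linear_combination -a.2.1 * h3
  · linear_combination a.2.2 * h3
  · linear_combination a.1 * h3

theorem Q0_cube {a : HC F} (ha : a ∈ Q0 F) : a ^ 3 = 1 := by
  rw [eq_qq ha, pow_three']
  ext <;> simp [qq]
  · linear_combination a.u * h3
  · linear_combination a.v * h3
  · linear_combination a.z * h3

theorem cen_Q {g : HC F} (h : ∀ w ∈ Q0 F, g * w = w * g) : g ∈ Z0 F := by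
  have a1 := h _ (qq_mem 1 0 0)
  have a2 := h _ (qq_mem 0 1 0)
  have b1 := congrArg H9.HC.u a1
  have b2 := congrArg H9.HC.v a1
  have b3 := congrArg H9.HC.z a1
  have b4 := congrArg H9.HC.u a2
  have b5 := congrArg H9.HC.v a2
  have b6 := congrArg H9.HC.z a2
  simp [qq] at b1 b2 b3 b4 b5 b6
  have c1 : g.a = 1 := by linear_combination b1
  have c2 : g.d = 1 := by linear_combination b5
  rw [b2, c1] at b3
  rw [b4, c2] at b6
  refine ⟨g.z, ?_⟩
  ext <;> simp [zz, c1, c2, b2, b4]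
  · exact (eq_zero_of_neg h3 (by linear_combination b6)).symm
  · exact (eq_zero_of_neg h3 (by linear_combination -b3)).symm

theorem cen_M {y g : HC F} (hy : y ∈ M0 F) (yZ : y ∉ Z0 F) (h : g * y = y * g) :
    g ∈ M0 F ∨ (y ∉ Q0 F ∧ g.c = 0 ∧ g.a = -1) := by
  obtain ⟨⟨x, b, z⟩, rfl⟩ := mem_M0.1 hy
  rw [m0_mem_Z] at yZ
  have b1 := congrArg H9.HC.u h
  have b2 := congrArg H9.HC.v h
  have b3 := congrArg H9.HC.z h
  have b4 := congrArg H9.HC.a h
  have b5 := congrArg H9.HC.b h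
  have hd := g.det
  simp [m0] at b1 b2 b3 b4 b5 yZ
  by_cases hx : x = 0
  · have hb := yZ hx
    have c1 : g.c = 0 := b2.resolve_right hb
    have c2 : g.a = 1 := mul_right_cancel₀ hb (by rw [hx] at b1; linear_combination -b1)
    have c3 : g.d = 1 := by rw [c1, c2] at hd; linear_combination hd
    refine Or.inl ⟨⟨c1, c2, c3⟩, mul_right_cancel₀ hb (eq_zero_of_neg h3 ?_ |>.trans
      (zero_mul b).symm)⟩
    rw [c1, c2] at b3
    linear_combination b3
  · have c1 : g.c = 0 := b4.resolve_left hx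
    have c2 : g.d = g.a := mul_left_cancel₀ hx (by linear_combination -b5)
    rw [c1, c2, mul_zero, sub_zero, mul_self_eq_one_iff] at hd
    rcases hd with e | e
    · refine Or.inl ⟨⟨c1, e, c2.trans e⟩, mul_left_cancel₀ hx ?_⟩
      rw [e] at b1
      linear_combination -b1
    · exact Or.inr ⟨fun e => hx (m0_mem_Q.1 e), c1, e⟩

theorem not_three {g : HC F} (hc : g.c = 0) (ha : g.a = -1) {k : ℕ} : g ^ 3 ^ k ≠ 1 := fun e => by
  have := (pow_a hc (3 ^ k)).2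
  rw [e, ha, Odd.neg_one_pow (Odd.pow (by decide))] at this
  exact neg_one_ne h3 this.symm

theorem cen_tt {g : HC F} (h : g * tt = tt * g) : g.u = 0 ∧ g.v = 0 := by
  have b1 := congrArg H9.HC.u h
  have b2 := congrArg H9.HC.v h
  simp [tt] at b1 b2
  exact ⟨eq_zero_of_neg h3 b1, eq_zero_of_neg h3 b2⟩

theorem eq_tt {g : HC F} (h : g * tt = tt * g) (h2 : g * g = 1) (h1 : g ≠ 1) : g = tt := by
  obtain ⟨c1, c2⟩ := cen_tt h3 h
  have b3 := congrArg H9.HC.z h2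
  have b4 := congrArg H9.HC.a h2
  have b5 := congrArg H9.HC.b h2
  have b6 := congrArg H9.HC.c h2
  have b7 := congrArg H9.HC.d h2
  have hd := g.det
  simp [c1, c2] at b3 b4 b5 b6 b7
  have c3 : g.z = 0 := eq_zero_of_neg h3 (by linear_combination b3)
  have c4 : g.a + g.d ≠ 0 := fun e => two_ne h3 (by linear_combination g.a * e - hd - b4)
  have c5 : g.b = 0 := mul_right_cancel₀ c4 (by linear_combination b5)
  have c6 : g.c = 0 := mul_right_cancel₀ c4 (by linear_combination b6)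
  have c7 : g.d = g.a := by
    rw [c5] at b4 hd
    linear_combination g.a * hd - g.d * b4
  rw [c5, zero_mul, add_zero, mul_self_eq_one_iff] at b4
  rcases b4 with e | e
  · exact absurd (by ext <;> simp [c1, c2, c3, c5, c6, c7, e]) h1
  · ext <;> simp [tt, c1, c2, c3, c5, c6, c7, e]

theorem cen_V {g : HC F} (h : g * ii = ii * g) (h' : g * jj = jj * g) :
    g ∈ Z0 F ∨ g * tt ∈ Z0 F := by
  obtain ⟨c1, c2⟩ := cen_tt h3 (g := g) (by rw [← ii_sq, ← mul_assoc, h, mul_assoc, h, mul_assoc])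
  have b4 := congrArg H9.HC.a h
  have b5 := congrArg H9.HC.b h
  have b6 := congrArg H9.HC.a h'
  have hd := g.det
  simp [ii, jj, uu, m0] at b4 b5 b6
  have c3 : g.b = 0 := by linear_combination 2 * b4 - b6
  have c4 : g.c = 0 := by linear_combination b4 - c3
  rw [c3, ← b5, zero_mul, sub_zero, mul_self_eq_one_iff] at hd
  rcases hd with e | e
  · exact Or.inl ⟨g.z, by ext <;> simp [zz, c1, c2, c3, c4, ← b5, e]⟩
  · exact Or.inr ⟨g.z, by ext <;> simp [zz, tt, c1, c2, c3, c4, ← b5, e]⟩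

variable [Finite F]

theorem three_dvd : 3 ∣ Nat.card F := by
  haveI := Fintype.ofFinite F
  haveI : CharP F 3 := CharP.ringChar_of_prime_eq_zero Nat.prime_three (by exact_mod_cast h3) ▸
    ringChar.charP F
  obtain ⟨n, -, e⟩ := FiniteField.card F 3
  rw [Nat.card_eq_fintype_card, e]
  exact dvd_pow_self _ n.ne_zero

theorem conj_M {y : HC F} (hy : y ^ 3 = 1) : ∃ k : HC F, k * y * k⁻¹ ∈ M0 F := by
  obtain ⟨k, hk⟩ := exists_conj_le_U (three_dvd h3) (pg_zp (k := 1) (by rwa [pow_one]))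
  have h1 := hk y (mem_zpowers y)
  have h2 : (k⁻¹ * y * k) ^ 3 = 1 := by simpa using cube_conj hy k⁻¹
  by_cases hv : (k⁻¹ * y * k).v = 0
  · exact ⟨k⁻¹, by rw [inv_inv]; exact ⟨h1, hv⟩⟩
  generalize hw : k⁻¹ * y * k = w at h1 h2 hv
  obtain ⟨c1, c2, c3⟩ := h1
  have b3 := congrArg H9.HC.z h2
  simp [pow_three', c1, c2, c3] at b3
  have hb : w.b = 0 := by
    apply mul_right_cancel₀ (mul_ne_zero hv hv)
    linear_combination -b3 + (w.z - w.b * w.v ^ 2) * h3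
  let g : HC F := ⟨0, 0, 0, 0, -w.v⁻¹, w.v, -w.u, by field_simp; ring⟩
  refine ⟨g * k⁻¹, ?_⟩
  rw [show g * k⁻¹ * y * (g * k⁻¹)⁻¹ = g * w * g⁻¹ by rw [← hw]; group]
  exact ⟨(Q0_conj g ⟨⟨c1, c2, c3⟩, hb⟩).1, by simp [g]; ring⟩

variable (φ : HC F ≃* HC F)

theorem aut_Q {g : HC F} (hg : g ∈ Q0 F) : φ g ∈ Q0 F := by
  obtain ⟨k, hk⟩ := exists_conj_le_U (three_dvd h3)
    ((pg_of_cube fun a ha => Q0_cube h3 ha).map φ.toMonoidHom)
  have h1 : ∀ w, w * φ g * w⁻¹ ∈ U F := fun w => by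
    have := hk _ (mem_map_of_mem _ (Q0_conj (φ.symm (k * w)) hg))
    simpa [mul_assoc] using this
  have h2 := (h1 ii).1
  simp [ii] at h2
  exact ⟨by simpa using h1 1, h2⟩

theorem aut_Z (z : F) : φ (zz z) ∈ Z0 F := cen_Q h3 fun w _ => by
  obtain ⟨w, rfl⟩ := φ.surjective w
  rw [← map_mul, ← map_mul, zz_comm]

theorem aut_fix {y a : HC F} (hy : y ∈ M0 F) (yQ : y ∉ Q0 F) (ha : a ∈ M0 F) (aQ : a ∈ Q0 F)
    (aZ : a ∉ Z0 F) (e1 : φ y = y) (e2 : φ a = a) : ∃ z, z ≠ 0 ∧ φ (zz z) = zz z := by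
  obtain ⟨⟨x, b, z⟩, rfl⟩ := mem_M0.1 hy
  obtain ⟨⟨x', β, ζ⟩, rfl⟩ := mem_M0.1 ha
  rw [m0_mem_Q] at yQ aQ
  rw [m0_mem_Z] at aZ
  simp only at yQ aQ aZ
  subst aQ
  have hβ : β ≠ 0 := fun e => aZ ⟨rfl, e⟩
  have k1 : ∀ w ∈ Q0 F, w * m0 (x, b, z) * w⁻¹ * (m0 (x, b, z))⁻¹ =
      m0 (0, w.v * x, w.v ^ 2 * x + 2 * w.v * b) := fun w hw => by
    rw [conj_m0 hw.1.1, ← m0_neg, ← m0_add, hw.1.2.1]
    congr 1
    ext <;> simp [bo]
  have k2 : ∀ w ∈ Q0 F, w * m0 (0, β, ζ) * w⁻¹ * (m0 (0, β, ζ))⁻¹ = zz (2 * w.v * β) :=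
    fun w hw => by
    rw [conj_m0 hw.1.1, ← m0_neg, ← m0_add, hw.1.2.1, ← m0_zz]
    congr 1
    ext <;> simp [bo]
  have w1 := qq_mem 0 (β / x) (0 : F)
  have w2 := aut_Q h3 φ w1
  obtain ⟨z', hz'⟩ := aut_Z h3 φ ((β / x) ^ 2 * x + 2 * (β / x) * b - ζ)
  have k3 : (φ (qq 0 (β / x) 0)).v = β / x := by
    have a1 := k1 _ w2
    have a2 : m0 (0, β / x * x, (β / x) ^ 2 * x + 2 * (β / x) * b) =
        m0 (0, β, ζ) * zz ((β / x) ^ 2 * x + 2 * (β / x) * b - ζ) := by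
      rw [← m0_zz, ← m0_add, div_mul_cancel₀ _ yQ]; simp
    have a3 := congrArg φ ((k1 _ w1).trans a2)
    simp only [map_mul, map_inv, e1, e2, ← hz'] at a3
    rw [← m0_zz, ← m0_add] at a3
    have a4 := congrArg (·.2.1) (m0_injective (a1.symm.trans a3))
    simp only [Prod.mk_add_mk, add_zero] at a4
    exact (eq_div_iff yQ).2 a4
  refine ⟨2 * (β / x) * β, mul_ne_zero (mul_ne_zero (two_ne h3) (div_ne_zero hβ yQ)) hβ, ?_⟩
  have a3 := congrArg φ (k2 _ w1)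
  simp only [map_mul, map_inv, e2] at a3
  rw [k2 _ w2, k3] at a3
  exact a3.symm

theorem aut_invol (h2 : ∀ g, φ (φ g) = g) (hz : ∀ z, φ (zz z) = (zz z)⁻¹) :
    ∃ a ∈ Q0 F, a ≠ 1 ∧ φ a = a := by
  by_contra! hn
  let ψ : Q0 F →* Q0 F := (φ.toMonoidHom.comp (Q0 F).subtype).codRestrict _ fun g => aut_Q h3 φ g.2
  have := MonoidHom.FixedPointFree.commute_all_of_involutive (φ := ψ)
    (fun g e => by
      by_contra ne
      exact hn g g.2 (fun e => ne (Subtype.ext e)) (congrArg Subtype.val e))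
    (fun g => Subtype.ext (h2 g)) ⟨_, qq_mem 1 0 0⟩ ⟨_, qq_mem 0 1 0⟩
  have h1 := congrArg (fun g : Q0 F => g.1.z) this.eq
  simp [qq] at h1
  exact neg_one_ne h3 h1.symm

theorem aut_four {m : ℕ} (hm : Odd m) (hF : Nat.card F = 3 ^ m)
    (h2 : ∀ g, φ (φ g) = tt * g * tt⁻¹) (ht : φ tt = tt) (hz : ∀ z, φ (zz z) = (zz z)⁻¹) :
    False := by
  have k0 : ∀ u v : F, tt * qq u v 0 * tt⁻¹ = (qq u v 0)⁻¹ := fun u v => by
    ext <;> simp [tt, qq]
  have k1 : ∀ u : F, φ (qq u 0 0) = qq (φ (qq u 0 0)).u 0 0 := fun u => by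
    by_cases hu : u = 0
    · rw [hu, show qq (0 : F) 0 0 = 1 from rfl, map_one]; rfl
    have a1 := aut_Q h3 φ (qq_mem u 0 0)
    have a2 := congrArg φ (k0 u 0)
    simp only [map_mul, map_inv, ht] at a2
    have a3 := congrArg φ (qq_comm u 0 0 (φ (qq u 0 0)).u (φ (qq u 0 0)).v (φ (qq u 0 0)).z)
    rw [← eq_qq a1] at a3
    simp only [map_mul, map_inv, h2, hz, k0] at a3
    rw [eq_qq a1] at a2 a3 ⊢
    have b1 := congrArg H9.HC.z a2
    have b2 := congrArg H9.HC.z a3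
    generalize (φ (qq u 0 0)).u = u' at *
    generalize (φ (qq u 0 0)).v = v' at *
    generalize (φ (qq u 0 0)).z = z' at *
    simp [qq, tt, zz] at b1 b2
    have c1 : z' = 0 := eq_zero_of_neg h3 (by linear_combination b1)
    have c2 : v' = 0 := by
      apply mul_left_cancel₀ hu
      linear_combination b2 - u * v' * h3
    simp [c1, c2, qq]
  haveI : CharP F 3 := CharP.ringChar_of_prime_eq_zero Nat.prime_three (by exact_mod_cast h3) ▸
    ringChar.charP F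
  letI : Algebra (ZMod 3) F := ZMod.algebra F 3
  let θ : F →+ F := AddMonoidHom.mk' (fun u => (φ (qq u 0 0)).u) fun a b => by
    rw [show qq (a + b) 0 0 = qq a 0 0 * qq b 0 0 by ext <;> simp [qq], map_mul, k1 a, k1 b]
    simp [qq]
  have k2 : θ.toZModLinearMap 3 ∘ₗ θ.toZModLinearMap 3 = (-1 : ZMod 3) • LinearMap.id := by
    ext u
    change (φ (qq (φ (qq u 0 0)).u 0 0)).u = _
    rw [← k1, h2, k0]
    simp [qq]
  have k3 : Module.finrank (ZMod 3) F = m := by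
    have := Module.natCard_eq_pow_finrank (K := ZMod 3) (V := F)
    rw [hF, Nat.card_zmod] at this
    exact (Nat.pow_right_injective (by norm_num) this).symm
  have k4 := congrArg LinearMap.det k2
  rw [LinearMap.det_comp, LinearMap.det_smul, LinearMap.det_id, k3, hm.neg_one_pow] at k4
  generalize LinearMap.det (θ.toZModLinearMap 3) = x at k4
  revert x
  decide

end Three

theorem not_dvd [Finite F] {m : ℕ} (hm : Odd m) (hF : Nat.card F = 3 ^ m) :
    ¬ 16 ∣ Nat.card (HC F) := by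
  haveI := Fintype.ofFinite F
  have e : HC F ≃ F × F × F × Matrix.SpecialLinearGroup (Fin 2) F :=
    { toFun := fun g => (g.u, g.v, g.z, ⟨!![g.a, g.b; g.c, g.d], by
        rw [Matrix.det_fin_two_of]; exact g.det⟩)
      invFun := fun x => ⟨x.1, x.2.1, x.2.2.1, x.2.2.2 0 0, x.2.2.2 0 1, x.2.2.2 1 0, x.2.2.2 1 1,
        by rw [← Matrix.det_fin_two]; exact x.2.2.2.2⟩
      left_inv := fun g => rfl
      right_inv := fun x => by
        refine Prod.ext rfl (Prod.ext rfl (Prod.ext rfl ?_))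
        ext i j; fin_cases i <;> fin_cases j <;> rfl }
  rw [Nat.card_congr e]
  simp only [Nat.card_prod]
  rw [H9.card_SL2, ← Nat.card_eq_fintype_card, hF]
  obtain ⟨k, rfl⟩ := hm
  have h1 : (3 ^ (2 * k + 1)) ^ 2 % 16 = 9 := by
    rw [← pow_mul, show (2 * k + 1) * 2 = 4 * k + 2 by ring, pow_add, pow_mul, Nat.mul_mod,
      Nat.pow_mod]
    simp
  have h2 : Nat.Coprime 16 (3 ^ (2 * k + 1)) := Nat.Coprime.pow_right _ (by norm_num)
  intro hd
  have := h2.dvd_of_dvd_mul_left (h2.dvd_of_dvd_mul_left (h2.dvd_of_dvd_mul_left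
    (h2.dvd_of_dvd_mul_left hd)))
  omega

end HY
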